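import Mathlib
import Cfsg.Agent.Lib.Helper5.CS4.Defs

set_option autoImplicit false

/-!
Package [FIX] of the CS4 project (S4146): an element of prime power order `t ^ k` commutes with
some conjugate of any element whose class size is prime to `t`.
-/

namespace Cfsg.Agent.Lib.Helper60.CS4

open Cfsg.Agent.Lib.Helper5.CS4

universe u

/-- [FIX] a `t`-element fixes a point of a conjugacy class of size prime to `t`. -/
theorem pkgFix : PkgFix.{u} := by
  intro G _ _ x w t k ht hord hnd
  have : Fact t.Prime := ⟨ht⟩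
  let C : Subgroup G := Subgroup.centralizer ({w} : Set G)
  let K : Subgroup G := Subgroup.zpowers x
  have hK : IsPGroup t K := by
    apply IsPGroup.of_card (n := k)
    rw [Nat.card_zpowers, hord]
  have hcard : ¬ t ∣ Nat.card (G ⧸ C) := by
    have h1 : Nat.card (G ⧸ C) = C.index := rfl
    rw [h1]
    exact hnd
  obtain ⟨q, hq⟩ := IsPGroup.nonempty_fixed_point_of_prime_not_dvd_card hK (G ⧸ C) hcard
  induction q using QuotientGroup.induction_on with
  | H g =>
    have h1 : (⟨x, Subgroup.mem_zpowers x⟩ : K) • (g : G ⧸ C) = (g : G ⧸ C) := hq _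
    have h2 : ((x * g : G) : G ⧸ C) = (g : G ⧸ C) := h1
    have h3 : (x * g)⁻¹ * g ∈ C := QuotientGroup.eq.mp h2
    have h4 : (x * g)⁻¹ * g * w = w * ((x * g)⁻¹ * g) :=
      (Subgroup.mem_centralizer_singleton_iff.mp h3).symm ▸ rfl
    refine ⟨g, ?_⟩
    have h5 : x * (g * w * g⁻¹) * x⁻¹ = g * w * g⁻¹ := by
      have e1 : x * (g * w * g⁻¹) * x⁻¹ = (x * g) * (w * ((x * g)⁻¹ * g)) * g⁻¹ := by group
      rw [e1, ← h4]
      group
    exact mul_inv_eq_iff_eq_mul.mp h5

end Cfsg.Agent.Lib.Helper60.CS4
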