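import Mathlib
import Cfsg.Agent.Lib.Helper5.CS4.Defs
import Cfsg.Agent.S4134

set_option autoImplicit false

/-!
Package [ITO] of the CS4 project (S4146): Ito's theorem on two class sizes (S4134) transported
to a subgroup `H` (relative-index form).
-/

namespace Cfsg.Agent.Lib.Helper60.CS4

open Cfsg.Agent.Lib.Helper5.CS4

universe u

/-- The centralizer of `x : H` inside `H` is the centralizer in `G` pulled back to `H`. -/
theorem centralizer_subtype_eq {G : Type u} [Group G] (H : Subgroup G) (x : H) :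
    Subgroup.centralizer ({x} : Set H) =
      (Subgroup.centralizer ({(x : G)} : Set G)).subgroupOf H := by
  ext y
  rw [Subgroup.mem_subgroupOf, Subgroup.mem_centralizer_singleton_iff,
    Subgroup.mem_centralizer_singleton_iff]
  constructor
  · intro h
    have := congrArg Subtype.val h
    simpa using this
  · intro h
    exact Subtype.ext (by simpa using h)

/-- [ITO] Ito's theorem inside a subgroup. -/
theorem pkgItoSub : PkgItoSub.{u} := by
  intro G _ _ H n hn hall a ha han r j hr hord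
  have hidx : ∀ x : H, (Subgroup.centralizer ({x} : Set H)).index =
      (Subgroup.centralizer ({(x : G)} : Set G)).relIndex H := by
    intro x
    rw [centralizer_subtype_eq]
    rfl
  obtain ⟨p, hp, e, hne, hP⟩ := Cfsg.Agent.S4134.result (G := H) n hn
    (fun x => by rw [hidx]; exact hall x x.2) ⟨⟨a, ha⟩, by rw [hidx]; exact han⟩
  have he : e ≠ 0 := by
    rintro rfl
    simp at hne
    omega
  have hpp : IsPrimePow n := by
    rw [hne]
    exact hp.out.isPrimePow.pow he
  refine ⟨hpp, ?_⟩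
  by_contra hrn
  have hrp : r ≠ p := by
    rintro rfl
    exact hrn (by rw [hne]; exact dvd_pow_self _ he)
  obtain ⟨P⟩ : Nonempty (Sylow p H) := inferInstance
  obtain ⟨-, ⟨N, -, hcompl, hNc, hNP⟩, -⟩ := hP P
  obtain ⟨⟨⟨x, hx⟩, ⟨y, hy⟩⟩, hxy⟩ := hcompl.2 ⟨a, ha⟩
  have hxy' : x * y = ⟨a, ha⟩ := hxy
  have hcomm : Commute x y := hNP x hx y hy
  have hordH : orderOf (⟨a, ha⟩ : H) = r ^ j := by
    rw [← hord]
    exact Subgroup.orderOf_mk a ha
  have hpow : x ^ (r ^ j) * y ^ (r ^ j) = 1 := by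
    rw [← hcomm.mul_pow, hxy', ← hordH, pow_orderOf_eq_one]
  have hyN : y ^ (r ^ j) ∈ N := by
    have h1 : y ^ (r ^ j) = (x ^ (r ^ j))⁻¹ := eq_inv_of_mul_eq_one_right hpow
    rw [h1]
    exact N.inv_mem (N.pow_mem hx _)
  have hyP : y ^ (r ^ j) ∈ (P : Subgroup H) := (P : Subgroup H).pow_mem hy _
  have hdisj : Disjoint N (P : Subgroup H) := hcompl.disjoint
  have hy1 : y ^ (r ^ j) = 1 := by
    have := hdisj.le_bot (show y ^ (r ^ j) ∈ N ⊓ (P : Subgroup H) from ⟨hyN, hyP⟩)
    simpa using this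
  have hyo : orderOf y ∣ r ^ j := orderOf_dvd_of_pow_eq_one hy1
  obtain ⟨k, hk⟩ := P.isPGroup' ⟨y, hy⟩
  have hk' : y ^ (p ^ k) = 1 := by
    have := congrArg Subtype.val hk
    simpa using this
  have hyo2 : orderOf y ∣ p ^ k := orderOf_dvd_of_pow_eq_one hk'
  have hcop : Nat.Coprime (r ^ j) (p ^ k) :=
    Nat.Coprime.pow _ _ ((Nat.coprime_primes hr hp.out).mpr hrp)
  have hy_one : y = 1 := by
    have : orderOf y = 1 := Nat.eq_one_of_dvd_coprimes hcop hyo hyo2
    exact orderOf_eq_one_iff.mp this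
  have hax : (⟨a, ha⟩ : H) = x := by rw [← hxy', hy_one, mul_one]
  -- `x ∈ N` is central in `H`
  have hcent : Subgroup.centralizer ({(⟨a, ha⟩ : H)} : Set H) = ⊤ := by
    rw [hax, Subgroup.eq_top_iff']
    intro g
    obtain ⟨⟨⟨x', hx'⟩, ⟨y', hy'⟩⟩, hg⟩ := hcompl.2 g
    have hg' : x' * y' = g := hg
    rw [Subgroup.mem_centralizer_singleton_iff, ← hg']
    have h1 : x' * x = x * x' := by
      have := hNc.is_comm.comm (⟨x', hx'⟩ : N) ⟨x, hx⟩
      exact congrArg Subtype.val this
    have h2 : x * y' = y' * x := hNP x hx y' hy'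
    calc x' * y' * x = x' * (y' * x) := by group
      _ = x' * (x * y') := by rw [h2]
      _ = (x' * x) * y' := by group
      _ = (x * x') * y' := by rw [h1]
      _ = x * (x' * y') := by group
  have h1 : (Subgroup.centralizer ({(⟨a, ha⟩ : H)} : Set H)).index = 1 := by
    rw [hcent, Subgroup.index_top]
  rw [hidx] at h1
  have h2 : (Subgroup.centralizer ({a} : Set G)).relIndex H = 1 := h1
  omega

end Cfsg.Agent.Lib.Helper60.CS4
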