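import Mathlib
import Cfsg.Agent.Lib.Helper5.CS4.Defs
import Cfsg.Agent.Lib.Helper60.CS4.Fix
import Cfsg.Agent.Lib.Helper67.SylowLemmas

set_option autoImplicit false

/-!
Package [B4] of the CS4 project (S4146): if a prime `p` divides no class size, every `p`-element
is central.
-/

namespace Cfsg.Agent.Lib.Helper60.CS4

open Cfsg.Agent.Lib.Helper5.CS4

universe u

/-- [B4] if `p` divides no class size, every `p`-element is central. -/
theorem pkgSylCentral : PkgSylCentral.{u} := by
  intro G _ _ p hp hnd x k hord
  have htop : Subgroup.centralizer ({x} : Set G) = ⊤ := by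
    apply Cfsg.Agent.Lib.Helper67.eq_top_of_forall_exists_conj_mem
    intro w
    obtain ⟨g, hg⟩ := pkgFix.{u} x w p k hp hord (hnd w)
    exact ⟨g, Subgroup.mem_centralizer_singleton_iff.mpr hg.symm⟩
  rw [Subgroup.mem_center_iff]
  intro g
  have hg : g ∈ Subgroup.centralizer ({x} : Set G) := by rw [htop]; trivial
  exact Subgroup.mem_centralizer_singleton_iff.mp hg

end Cfsg.Agent.Lib.Helper60.CS4
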